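import Cfsg.Agent.Blocks.OneLess.Column
import Cfsg.Agent.Blocks.Orth.ClassMult
import Cfsg.Agent.Constrained.HallHigman
import Cfsg.Agent.Constrained.PSolvable
import Cfsg.Agent.S0947

/-!
# Products of two elements of order `p` that are `p`-regular

When all nontrivial `p`-elements are conjugate to `x` and `C(x)` has a normal `p`-complement, the
function of the `p`-singular elements is a combination of the principal block with coefficients
the integers `a χ = χ x`. Summing the class multiplication formula over the `p`-regular elements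
then gives the proportion of conjugates `y` of `x` with `x * y` regular. If any two elements of
order `p` generate a `p`-solvable group, that proportion is at most `1 / (p - 1)`, which for odd
`p` is incompatible with simplicity.
-/

set_option autoImplicit false
set_option linter.style.haveILetI false
open Cfsg CfsgLib CfsgLib.Blocks
open scoped ComplexConjugate

namespace CfsgLib.Blocks.RegularProduct

universe u

variable {G : Type u} [Group G] [Fintype G] {p : ℕ} [hp : Fact p.Prime] {M : Ideal AlgInt}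

/-- A `p`-solvable group generated by its `p`-elements with abelian Sylow subgroups is, modulo
`O_{p'}`, a `p`-group. -/
theorem isPGroup_quotient {H : Type*} [Group H] [Finite H] (hs : IsPSolvable p H)
    (hab : ∀ P : Sylow p H, IsMulCommutative (P : Subgroup H)) (S : Set H)
    (hS : Subgroup.closure S = ⊤) (hSp : ∀ s ∈ S, ∃ k : ℕ, orderOf s = p ^ k) :
    IsPGroup p (H ⧸ pPrimeCore p H) := by
  set O := pPrimeCore p H
  set f := QuotientGroup.mk' O with hf
  set K := pCore p (H ⧸ O)
  have hle : ∀ P : Sylow p H, (P : Subgroup H).map f ≤ K := by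
    intro P
    set Q := P.mapSurjective (QuotientGroup.mk'_surjective O) with hQ
    have hQc : (Q : Subgroup (H ⧸ O)) = (P : Subgroup H).map f := rfl
    have hKQ : K ≤ (Q : Subgroup (H ⧸ O)) :=
      IsPGroup.le_sylow_of_normal (Constrained.isPGroup_pCore) Q
    refine le_trans ?_ (Constrained.centralizer_pCore_quotient_le hs)
    rintro _ ⟨a, ha, rfl⟩
    refine Subgroup.mem_centralizer_iff.2 fun c hc => ?_
    obtain ⟨b, hb, rfl⟩ := hQc ▸ hKQ hc
    rw [← map_mul, ← map_mul]
    have := hab P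
    exact congrArg f (congrArg Subtype.val
      (mul_comm' (⟨b, hb⟩ : (P : Subgroup H)) ⟨a, ha⟩))
  have htop : K = ⊤ := by
    rw [eq_top_iff, ← Subgroup.map_top_of_surjective f (QuotientGroup.mk'_surjective O), ← hS,
      MonoidHom.map_closure, Subgroup.closure_le]
    rintro _ ⟨s, hs', rfl⟩
    obtain ⟨k, hk⟩ := hSp s hs'
    obtain ⟨P, hP⟩ := (IsPGroup.of_card (G := Subgroup.zpowers s) (p := p) (n := k)
      (by rw [Nat.card_zpowers, hk])).exists_le_sylow
    exact hle P ⟨s, hP (Subgroup.mem_zpowers s), rfl⟩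
  have hKp : IsPGroup p K := Constrained.isPGroup_pCore
  rw [htop] at hKp
  exact hKp.of_equiv Subgroup.topEquiv

/-- Two powers of `y` with regular product with `x` agree. -/
theorem pow_eq_self {H : Type*} [Group H] [Finite H] (hs : IsPSolvable p H)
    (hab : ∀ P : Sylow p H, IsMulCommutative (P : Subgroup H)) (x y : H)
    (hS : Subgroup.closure {x, y} = ⊤) (hx : orderOf x = p) (hy : orderOf y = p) (k : ℕ)
    (h1 : ¬ p ∣ orderOf (x * y)) (h2 : ¬ p ∣ orderOf (x * y ^ k)) : y ^ k = y := by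
  set O := pPrimeCore p H
  have hQ := isPGroup_quotient hs hab _ hS (by
    rintro s (rfl | rfl)
    · exact ⟨1, by rw [pow_one, hx]⟩
    · exact ⟨1, by rw [pow_one, hy]⟩)
  have hmem : ∀ g : H, ¬ p ∣ orderOf g → g ∈ O := by
    intro g hg
    obtain ⟨j, hj⟩ := IsPGroup.iff_orderOf.1 hQ (QuotientGroup.mk' O g)
    have hd : p ^ j ∣ orderOf g := hj ▸ orderOf_map_dvd _ g
    rcases Nat.eq_zero_or_pos j with rfl | hjp
    · rw [pow_zero, orderOf_eq_one_iff, QuotientGroup.mk'_apply, QuotientGroup.eq_one_iff] at hj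
      exact hj
    · exact absurd ((dvd_pow_self p hjp.ne').trans hd) hg
  have hd : y⁻¹ * y ^ k ∈ O := by
    rw [show y⁻¹ * y ^ k = (x * y)⁻¹ * (x * y ^ k) by group]
    exact O.mul_mem (O.inv_mem (hmem _ h1)) (hmem _ h2)
  have hz : y⁻¹ * y ^ k ∈ Subgroup.zpowers y :=
    Subgroup.mul_mem _ (Subgroup.inv_mem _ (Subgroup.mem_zpowers y))
      (Subgroup.pow_mem _ (Subgroup.mem_zpowers y) k)
  have h : y⁻¹ * y ^ k ∈ Subgroup.zpowers y ⊓ O := ⟨hz, hd⟩
  rw [Constrained.disjoint_of_isPGroup_of_not_dvd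
    (IsPGroup.of_card (p := p) (n := 1) (by rw [Nat.card_zpowers, hy, pow_one]))
    Constrained.pPrimeCore_not_dvd, Subgroup.mem_bot, inv_mul_eq_one] at h
  exact h.symm

/-- The contradiction. -/
theorem false_of_odd [IsSimpleGroup G] (hM : IsPModular p M) (hodd : p ≠ 2) (P : Sylow p G)
    (hab : IsMulCommutative (P : Subgroup G)) (hexp : ∀ a ∈ (P : Subgroup G), a ^ p = 1)
    (x : G) (hxP : x ∈ (P : Subgroup G)) (hx1 : x ≠ 1)
    (hconj : ∀ y ∈ (P : Subgroup G), y ≠ 1 → IsConj x y)
    (hC : HasNormalPComplement p ↥(Subgroup.centralizer ({x} : Set G)))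
    (hgen : ∀ y z : G, orderOf y = p → orderOf z = p →
      IsPSolvable p ↥(Subgroup.closure ({y, z} : Set G))) : False := by
  classical
  have := isMaximal_of_isPModular hM
  haveI : CharP (kres M) p := charP_kres hM
  have hord : orderOf x = p := orderOf_eq_prime (hexp x hxP) hx1
  have hu : ∃ e : ℕ, orderOf x = p ^ e := ⟨1, by rw [pow_one, hord]⟩
  set C := Subgroup.centralizer ({x} : Set G) with hCdef
  haveI := Fintype.ofFinite C
  set B := principalBlock M G with hBdef
  have hB : IsPBlock M B := isPBlock_principalBlock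
  set b := principalBlock M C with hbdef
  have hb : IsPBlock M b := isPBlock_principalBlock
  have hb1 : blockRank p b = 1 := PrincipalPair.rank_one_of_hasNormalPComplement hM hC
  have hreg1 : ¬ p ∣ orderOf (1 : C) := by simp [hp.out.ne_one]
  -- the members of the principal block are constant on singular elements
  have hconst : ∀ χ ∈ B, ∀ t : C, ¬ p ∣ orderOf t →
      (χ : G → ℂ) (x * (t : G)) = (χ : G → ℂ) x := by
    intro χ hχ t ht
    have h1 := HeightZero.apply_section_eq_blockPart hM hu hχ (s := t) ht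
    have h2 := HeightZero.apply_section_eq_blockPart hM hu hχ (s := (1 : C)) hreg1
    rw [Subgroup.coe_one, mul_one] at h2
    rw [h1, h2, blockPart_apply_eq]
    simp only [Finset.sum_apply, Pi.smul_apply, smul_eq_mul]
    exact Finset.sum_congr rfl fun ψ hψ => by
      rw [PrincipalPair.eq_oneChar_smul_of_rank_one hM hb1 ((Set.Finite.mem_toFinset _).1 hψ) ht]
  have hconj' : ∀ y : G, y ^ p = 1 → y ≠ 1 → IsConj x y := by
    intro y hy hy1
    have hyo : orderOf y = p := orderOf_eq_prime hy hy1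
    obtain ⟨Q, hQ⟩ := (IsPGroup.of_card (G := Subgroup.zpowers y) (p := p) (n := 1)
      (by rw [Nat.card_zpowers, hyo, pow_one])).exists_le_sylow
    obtain ⟨c, hc⟩ := MulAction.exists_smul_eq G Q P
    have hyP : c * y * c⁻¹ ∈ (P : Subgroup G) := by
      rw [← hc]; exact ⟨y, hQ (Subgroup.mem_zpowers y), rfl⟩
    refine (hconj _ hyP fun h => hy1 ?_).trans (isConj_iff.2 ⟨c, rfl⟩).symm
    simpa [mul_assoc] using congrArg (fun w => c⁻¹ * w * c) h
  have hsing : ∀ χ ∈ B, ∀ g : G, p ∣ orderOf g → (χ : G → ℂ) g = (χ : G → ℂ) x := by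
    intro χ hχ g hg
    obtain ⟨u, y, hu', hy, huy, ⟨j, hj⟩, hyc⟩ := Transfer.exists_pPart_decomposition (p := p) g
    have hu1 : u ≠ 1 := by
      rintro rfl
      rw [huy, one_mul] at hg
      exact Transfer.not_dvd_of_coprime hyc hg
    have hup : u ^ p = 1 := by
      obtain ⟨i, -, hi⟩ := (Nat.dvd_prime_pow hp.out).1 hj
      obtain ⟨Q, hQ⟩ := (IsPGroup.of_card (G := Subgroup.zpowers u) (p := p) (n := i)
        (by rw [Nat.card_zpowers, hi])).exists_le_sylow
      obtain ⟨c, hc⟩ := MulAction.exists_smul_eq G Q P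
      have huP : c * u * c⁻¹ ∈ (P : Subgroup G) := by
        rw [← hc]; exact ⟨u, hQ (Subgroup.mem_zpowers u), rfl⟩
      have := hexp _ huP
      rw [conj_pow, conj_eq_one_iff] at this
      exact this
    obtain ⟨c, hc⟩ := isConj_iff.1 (hconj' u hup hu1).symm
    have hcomm : Commute u y := by
      obtain ⟨m, rfl⟩ := hu'
      obtain ⟨m', rfl⟩ := hy
      exact Commute.zpow_zpow (Commute.refl g) m m'
    have hyC : c * y * c⁻¹ ∈ C := by
      refine Subgroup.mem_centralizer_singleton_iff.2 ?_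
      rw [← hc]
      exact ((hcomm.map (MulAut.conj c).toMonoidHom).eq).symm
    rw [← Chars.isClassFunction_coe χ g c,
      ← hconst χ hχ ⟨c * y * c⁻¹, hyC⟩ (by
        rw [Subgroup.orderOf_mk]
        show ¬ p ∣ orderOf (MulAut.conj c y)
        rw [MulEquiv.orderOf_eq]
        exact Transfer.not_dvd_of_coprime hyc)]
    refine congrArg (χ : G → ℂ) ?_
    rw [← hc, huy]
    group
  have hint : ∀ χ ∈ B, ∃ m : ℤ, (χ : G → ℂ) x = m := fun χ hχ =>
    Chars.TISylow.exists_int_of_const (Chars.isCharacter_coe χ) x fun j hj => hsing χ hχ _ (by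
      rw [Nat.Coprime.orderOf_pow hj.symm, hord])
  let a : IrrCharacter G → ℤ := fun χ => if h : χ ∈ B then (hint χ h).choose else 0
  have hax : ∀ χ ∈ B, (χ : G → ℂ) x = a χ := fun χ hχ => by
    simp only [a, dif_pos hχ]; exact (hint χ hχ).choose_spec
  set s := B.toFinite.toFinset with hs
  have hmem : ∀ {χ}, χ ∈ s → χ ∈ B := fun h => (Set.Finite.mem_toFinset _).1 h
  have hone : Chars.oneChar G ∈ s :=
    (Set.Finite.mem_toFinset _).2 (PrincipalLinear.one_mem hM)
  have ha1 : a (Chars.oneChar G) = 1 := by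
    have h := hax _ (hmem hone)
    rw [Chars.oneChar_apply] at h
    exact_mod_cast h.symm
  set q := Nat.card (P : Subgroup G) with hq
  -- the square sum is the order of `P`
  have hsq : ∑ χ ∈ s, a χ ^ 2 = (q : ℤ) := by
    obtain ⟨N, hN, hNc, k, hNk⟩ := Transfer.hasNormalPComplement_iff_exists.1 hC
    have hidx : ∃ k : ℕ, (pPrimeCore p C).index = p ^ k := by
      obtain ⟨i, -, hi⟩ := (Nat.dvd_prime_pow hp.out).1
        (hNk ▸ Subgroup.index_dvd_of_le (Constrained.le_pPrimeCore hN hNc))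
      exact ⟨i, hi⟩
    have hPC : (P : Subgroup G) ≤ C := fun y hy => Subgroup.mem_centralizer_singleton_iff.2
      (congrArg Subtype.val (mul_comm' (⟨y, hy⟩ : (P : Subgroup G)) ⟨x, hxP⟩))
    have hfac : p ^ (Nat.card C).factorization p = q := by
      refine Nat.dvd_antisymm (P.pow_dvd_card_of_pow_dvd_card
        ((Nat.ordProj_dvd _ _).trans (Subgroup.card_subgroup_dvd_card C))) ?_
      obtain ⟨i, hi⟩ := P.isPGroup'.exists_card_eq
      have hdvd := Subgroup.card_dvd_of_le hPC
      rw [← hq] at hdvd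
      rw [hq, hi] at hdvd ⊢
      exact pow_dvd_pow p ((hp.out.pow_dvd_iff_le_factorization Nat.card_pos.ne').1 hdvd)
    have h := (Cfsg.Agent.S0947.result p M hM x hu hx1 (1 : C) hreg1).2 hidx
    rw [hfac, finsum_block_eq_sum] at h
    have h' : ((∑ χ ∈ s, a χ ^ 2 : ℤ) : ℝ) = ((q : ℤ) : ℝ) := by
      rw [Int.cast_natCast, ← h, Int.cast_sum]
      refine Finset.sum_congr rfl fun χ hχ => ?_
      rw [Subgroup.coe_one, mul_one, hax χ (hmem hχ), Complex.norm_intCast, Int.cast_pow, sq_abs]
    exact_mod_cast h'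
  -- the function of the singular elements
  have hΦ : ∀ g : G, ∑ χ ∈ s, (a χ : ℂ) * (χ : G → ℂ) g =
      if p ∣ orderOf g then (q : ℂ) else 0 := by
    intro g
    split_ifs with hg
    · rw [← Int.cast_natCast, ← hsq, Int.cast_sum]
      refine Finset.sum_congr rfl fun χ hχ => ?_
      rw [hsing χ (hmem hχ) g hg, hax χ (hmem hχ), Int.cast_pow]
      ring
    · have h := finsum_block_regular_mul_conj_singular hM hB hg (y := x) (by rw [hord])
      rw [finsum_block_eq_sum] at h
      refine Eq.trans (Finset.sum_congr rfl fun χ hχ => ?_) h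
      rw [hax χ (hmem hχ), map_intCast, mul_comm]
  set S : ℝ := ∑ χ ∈ s, (a χ : ℝ) ^ 3 / (charDegree (χ : G → ℂ) : ℝ) with hSdef
  set T := Finset.univ.filter fun g : G => ¬ p ∣ orderOf (x * (g * x * g⁻¹)) with hT
  have hG0 : (0 : ℝ) < Nat.card G := by exact_mod_cast Nat.card_pos
  have hcount : (q : ℝ) * T.card = Nat.card G * ((q : ℝ) - S) := by
    have h1 : ∀ χ ∈ s, ∑ g : G, (a χ : ℂ) * (χ : G → ℂ) (x * (g * x * g⁻¹)) =
        (Nat.card G : ℂ) * ((((a χ : ℝ) ^ 3 / (charDegree (χ : G → ℂ) : ℝ)) : ℝ) : ℂ) := by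
      intro χ hχ
      have hd := Chars.map_one_ne_zero χ
      rw [← Finset.mul_sum, Chars.sum_map_mul_conjugate, hax χ (hmem hχ)]
      push_cast
      rw [Chars.coe_charDegree]
      field_simp
    have h2 : ∑ g : G, ∑ χ ∈ s, (a χ : ℂ) * (χ : G → ℂ) (x * (g * x * g⁻¹)) =
        (Nat.card G : ℂ) * (S : ℂ) := by
      rw [Finset.sum_comm, Finset.sum_congr rfl h1, ← Finset.mul_sum, hSdef, Complex.ofReal_sum]
    simp only [hΦ] at h2
    rw [← Finset.sum_filter, Finset.sum_const, nsmul_eq_mul] at h2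
    have h3 : ((Finset.univ.filter fun g : G => p ∣ orderOf (x * (g * x * g⁻¹))).card : ℝ) * q =
        (Nat.card G : ℝ) * S := by exact_mod_cast h2
    have h4 : ((Finset.univ.filter fun g : G => p ∣ orderOf (x * (g * x * g⁻¹))).card : ℝ) +
        T.card = Nat.card G := by
      rw [hT, Nat.card_eq_fintype_card]
      exact_mod_cast Finset.card_filter_add_card_filter_not _
    rw [← h4] at h3 ⊢
    linarith
  -- at most one generator of each subgroup of order `p`
  have hn : ∀ i : Fin (p - 1), ∃ n : G, n * x * n⁻¹ = x ^ (i.val + 1) := fun i => by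
    have hne : x ^ (i.val + 1) ≠ 1 := fun h => by
      have := Nat.le_of_dvd (by omega) (hord ▸ orderOf_dvd_of_pow_eq_one h)
      have := i.2; omega
    exact isConj_iff.1 (hconj _ ((P : Subgroup G).pow_mem hxP _) hne)
  choose n hn using hn
  have hle : (p - 1) * T.card ≤ Nat.card G := by
    rw [← Fintype.card_coe T, Nat.card_eq_fintype_card, ← Fintype.card_fin (p - 1),
      ← Fintype.card_prod]
    refine Fintype.card_le_of_injective (fun ig : Fin (p - 1) × T => (ig.2 : G) * n ig.1) ?_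
    rintro ⟨i, g, hg⟩ ⟨j, g', hg'⟩ h
    simp only [] at h
    have key : ∀ (i : Fin (p - 1)) (g : G), (g * n i) * x * (g * n i)⁻¹ =
        (g * x * g⁻¹) ^ (i.val + 1) := fun i g => by
      rw [conj_pow, ← hn i]; group
    set y := g * x * g⁻¹ with hy
    set y' := g' * x * g'⁻¹ with hy'
    have hpow : y ^ (i.val + 1) = y' ^ (j.val + 1) := by rw [← key i g, ← key j g', h]
    have hyo : ∀ g : G, orderOf (g * x * g⁻¹) = p := fun g => by
      rw [← MulAut.conj_apply, MulEquiv.orderOf_eq, hord]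
    have hjlt : j.val + 1 < p := by have := j.2; omega
    have hilt : i.val + 1 < p := by have := i.2; omega
    -- `y'` is a power of `y`
    obtain ⟨k, hk⟩ : ∃ k : ℕ, y ^ k = y' := by
      have hc : (j.val + 1).Coprime (orderOf y') := by
        rw [hyo]
        exact (hp.out.coprime_iff_not_dvd.2 (Nat.not_dvd_of_pos_of_lt (by omega) hjlt)).symm
      obtain ⟨m, hm⟩ := exists_pow_eq_self_of_coprime hc
      exact ⟨(i.val + 1) * m, by rw [pow_mul, hpow, hm]⟩
    have hyy : y' = y := by
      set H := Subgroup.closure ({x, y} : Set G) with hH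
      have hxH : x ∈ H := Subgroup.subset_closure (Set.mem_insert _ _)
      have hyH : y ∈ H := Subgroup.subset_closure (Set.mem_insert_of_mem _ rfl)
      have htop : Subgroup.closure ({⟨x, hxH⟩, ⟨y, hyH⟩} : Set H) = ⊤ := by
        apply Subgroup.map_injective H.subtype_injective
        rw [MonoidHom.map_closure, ← MonoidHom.range_eq_map, Subgroup.range_subtype]
        simp [Set.image_insert_eq, hH]
      have hab' : ∀ R : Sylow p H, IsMulCommutative (R : Subgroup H) := by
        intro R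
        obtain ⟨Q, hQ⟩ := (R.2.map H.subtype).exists_le_sylow
        obtain ⟨c, hc⟩ := MulAction.exists_smul_eq G Q P
        refine ⟨⟨fun u v => Subtype.ext (Subtype.ext ((MulAut.conj c).injective ?_))⟩⟩
        have hmem' : ∀ u : (R : Subgroup H), MulAut.conj c ((u : H) : G) ∈ (P : Subgroup G) :=
          fun u => by rw [← hc]; exact ⟨_, hQ ⟨u, u.2, rfl⟩, rfl⟩
        rw [Subgroup.coe_mul, Subgroup.coe_mul, Subgroup.coe_mul, Subgroup.coe_mul, map_mul,
          map_mul]
        exact congrArg Subtype.val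
          (mul_comm' (⟨_, hmem' u⟩ : (P : Subgroup G)) ⟨_, hmem' v⟩)
      have hg1 : ¬ p ∣ orderOf (x * y) := (Finset.mem_filter.1 hg).2
      have hg2 : ¬ p ∣ orderOf (x * y') := (Finset.mem_filter.1 hg').2
      have h' := pow_eq_self (hgen x y hord (hyo g)) hab' ⟨x, hxH⟩ ⟨y, hyH⟩ htop
        (by rw [Subgroup.orderOf_mk, hord]) (by rw [Subgroup.orderOf_mk]; exact hyo g) k
        (by rwa [← Subgroup.orderOf_coe, Subgroup.coe_mul])
        (by rw [← Subgroup.orderOf_coe, Subgroup.coe_mul, SubgroupClass.coe_pow, hk]; exact hg2)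
      rw [← hk]
      simpa using congrArg Subtype.val h'
    rw [hyy] at hpow
    have hij : i = j := Fin.ext (by
      have := pow_injOn_Iio_orderOf (x := y) (by rw [Set.mem_Iio, hyo]; exact hilt)
        (by rw [Set.mem_Iio, hyo]; exact hjlt) hpow
      omega)
    subst hij
    simp only [mul_left_inj] at h
    subst h
    rfl
  -- the bound on the sum
  have hq2 : p ≤ q := Nat.le_of_dvd Nat.card_pos
    (hord.symm.dvd.trans (Subgroup.orderOf_dvd_natCard _ hxP))
  have hp3 : 3 ≤ p := Nat.lt_of_le_of_ne hp.out.two_le hodd.symm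
  set t := s.erase (Chars.oneChar G) with ht
  have hsum1 : ∑ χ ∈ t, a χ ^ 2 = (q : ℤ) - 1 := by
    rw [ht, Finset.sum_erase_eq_sub hone, hsq, ha1]; norm_num
  have hdiv : ∀ χ ∈ t, ∀ r : ℝ, 0 < r → (0 < a χ → (a χ : ℝ) / ((a χ : ℝ) + q) ≤ r) →
      (a χ : ℝ) ^ 3 / (charDegree (χ : G → ℂ) : ℝ) ≤ (a χ : ℝ) ^ 2 * r := by
    intro χ hχ r hr hpos
    set d := charDegree (χ : G → ℂ)
    have hd : (0 : ℝ) < d := by exact_mod_cast Chars.charDegree_pos χ
    rcases le_or_gt (a χ) 0 with h0 | h0
    · refine le_trans (div_nonpos_of_nonpos_of_nonneg ?_ hd.le) (mul_nonneg (sq_nonneg _) hr.le)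
      have : (a χ : ℝ) ≤ 0 := by exact_mod_cast h0
      nlinarith [sq_nonneg (a χ : ℝ)]
    have hχ' := hmem (Finset.mem_erase.1 hχ).2
    have hle' : a χ ≤ (d : ℤ) := by
      have h := Chars.norm_apply_le (Chars.isCharacter_coe χ) x
      rw [hax χ hχ', ← Chars.coe_charDegree, Complex.norm_intCast, Complex.norm_natCast] at h
      exact_mod_cast (le_abs_self _).trans h
    have hne : a χ ≠ (d : ℤ) := by
      intro he
      have hmemK : x ∈ Chars.charKer (χ : G → ℂ) :=
        (Chars.mem_charKer_iff (Chars.isCharacter_coe χ)).2 (by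
          rw [hax χ hχ', ← Chars.coe_charDegree, he, Int.cast_natCast])
      rcases IsSimpleGroup.eq_bot_or_eq_top_of_normal _
          (Chars.charKer_normal (Chars.isClassFunction_coe χ)) with hK | hK
      · rw [hK, Subgroup.mem_bot] at hmemK; exact hx1 hmemK
      · have h := Chars.classInner_of_ne (Finset.mem_erase.1 hχ).1
        simp only [classInner, Chars.oneChar_apply, map_one, mul_one] at h
        rw [Finset.sum_congr rfl fun g _ => Chars.map_eq_map_one_of_mem_charKer
          (hK ▸ Subgroup.mem_top g), Finset.sum_const, nsmul_eq_mul] at h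
        exact mul_ne_zero (inv_ne_zero Chars.natCard_ne_zero) (mul_ne_zero
          (Nat.cast_ne_zero.2 Fintype.card_ne_zero) (Chars.map_one_ne_zero χ)) h
    obtain ⟨m, hm⟩ := exists_sum_subgroup_eq χ (P : Subgroup G)
    have hcong : (d : ℤ) - a χ = (q : ℤ) * ((m : ℤ) - a χ) := by
      have h : ∑ u : (P : Subgroup G), ((χ : G → ℂ) u - (a χ : ℂ)) = ((d : ℤ) - a χ : ℤ) := by
        rw [Finset.sum_eq_single (1 : (P : Subgroup G))]
        · push_cast; rw [Chars.coe_charDegree]
        · intro u _ hu1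
          have hu1' : (u : G) ≠ 1 := fun h => hu1 (Subtype.ext h)
          have : (χ : G → ℂ) (u : G) = (χ : G → ℂ) x := by
            obtain ⟨c, hc⟩ := isConj_iff.1 (hconj _ u.2 hu1')
            rw [← hc, Chars.isClassFunction_coe χ x c]
          rw [this, hax χ hχ', sub_self]
        · simp
      rw [Finset.sum_sub_distrib, hm, Finset.sum_const, nsmul_eq_mul, Finset.card_univ,
        ← Nat.card_eq_fintype_card, ← hq, ← mul_sub] at h
      exact_mod_cast h.symm
    have hge : a χ + (q : ℤ) ≤ d := by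
      have h1 : 1 ≤ (m : ℤ) - a χ := by
        by_contra h1
        have : (q : ℤ) * ((m : ℤ) - a χ) ≤ 0 :=
          mul_nonpos_of_nonneg_of_nonpos (by positivity) (by omega)
        omega
      nlinarith [Int.natCast_nonneg q]
    have hgeR : (a χ : ℝ) + q ≤ (d : ℝ) := by exact_mod_cast hge
    have h0R : (0 : ℝ) < a χ := by exact_mod_cast h0
    calc (a χ : ℝ) ^ 3 / d ≤ (a χ : ℝ) ^ 3 / ((a χ : ℝ) + q) :=
          div_le_div_of_nonneg_left (by positivity) (by positivity) hgeR
      _ = (a χ : ℝ) ^ 2 * ((a χ : ℝ) / ((a χ : ℝ) + q)) := by ring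
      _ ≤ _ := mul_le_mul_of_nonneg_left (hpos h0) (sq_nonneg _)
  obtain ⟨χ₀, hχ₀, hneg⟩ : ∃ χ ∈ t, a χ < 0 := by
    by_contra hcon
    push Not at hcon
    have h := hΦ 1
    rw [if_neg (by simp [hp.out.ne_one])] at h
    have h' : ∑ χ ∈ s, a χ * (charDegree (χ : G → ℂ) : ℤ) = 0 := by
      have : ((∑ χ ∈ s, a χ * (charDegree (χ : G → ℂ) : ℤ) : ℤ) : ℂ) = 0 := by
        push_cast
        simpa only [Chars.coe_charDegree] using h
      exact_mod_cast this
    have hd1 : charDegree ((Chars.oneChar G : IrrCharacter G) : G → ℂ) = 1 :=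
      Chars.charDegree_eq_of_map_one (by rw [Chars.oneChar_apply, Nat.cast_one])
    rw [← Finset.add_sum_erase _ _ hone, ha1, hd1] at h'
    have : 0 ≤ ∑ χ ∈ s.erase (Chars.oneChar G), a χ * (charDegree (χ : G → ℂ) : ℤ) :=
      Finset.sum_nonneg fun χ hχ => mul_nonneg (hcon χ hχ) (Int.natCast_nonneg _)
    push_cast at h'
    omega
  have hsmall : ∀ χ ∈ t, a χ * a χ ≤ (q : ℤ) - 1 := fun χ hχ => by
    rw [← hsum1, ← sq]
    exact Finset.single_le_sum (f := fun ψ => a ψ ^ 2) (fun ψ _ => sq_nonneg _) hχ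
  have hbound : ∀ r : ℝ, 0 < r →
      (∀ χ ∈ t, 0 < a χ → (a χ : ℝ) / ((a χ : ℝ) + q) ≤ r) →
      S < 1 + ((q : ℝ) - 1) * r := by
    intro r hr hpos
    have hd1 : charDegree ((Chars.oneChar G : IrrCharacter G) : G → ℂ) = 1 :=
      Chars.charDegree_eq_of_map_one (by rw [Chars.oneChar_apply, Nat.cast_one])
    have hcast : (∑ χ ∈ t, (a χ : ℝ) ^ 2) = (q : ℝ) - 1 := by exact_mod_cast hsum1
    rw [hSdef, ← Finset.add_sum_erase _ _ hone, ha1, hd1, ← ht, ← hcast, Finset.sum_mul]
    norm_num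
    refine Finset.sum_lt_sum (fun χ hχ => hdiv χ hχ r hr (hpos χ hχ)) ⟨χ₀, hχ₀, ?_⟩
    have hn' : (a χ₀ : ℝ) < 0 := by exact_mod_cast hneg
    have hd : (0 : ℝ) < charDegree (χ₀ : G → ℂ) := by exact_mod_cast Chars.charDegree_pos χ₀
    refine lt_of_lt_of_le (div_neg_of_neg_of_pos ?_ hd) (by positivity)
    nlinarith [mul_pos (neg_pos.2 hn') (neg_pos.2 hn')]
  have hmain : ((p : ℝ) - 1) * ((q : ℝ) - S) ≤ q := by
    have h1 : (((p - 1) * T.card : ℕ) : ℝ) ≤ (Nat.card G : ℝ) := by exact_mod_cast hle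
    rw [Nat.cast_mul, Nat.cast_sub hp.out.one_le, Nat.cast_one] at h1
    refine le_of_mul_le_mul_left ?_ hG0
    calc (Nat.card G : ℝ) * (((p : ℝ) - 1) * ((q : ℝ) - S))
        = ((p : ℝ) - 1) * ((q : ℝ) * T.card) := by rw [hcount]; ring
      _ = (((p : ℝ) - 1) * T.card) * q := by ring
      _ ≤ (Nat.card G : ℝ) * q := mul_le_mul_of_nonneg_right h1 (by positivity)
  have hpR : (3 : ℝ) ≤ p := by exact_mod_cast hp3
  by_cases hq3 : q = 3
  · have hS := hbound (1 / 4) (by norm_num) fun χ hχ h0 => by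
      have h2 := hsmall χ hχ
      have hq' : (q : ℝ) = 3 := by exact_mod_cast hq3
      have hle1 : a χ ≤ 1 := by
        by_contra hlt
        have : (q : ℤ) = 3 := by exact_mod_cast hq3
        nlinarith
      have h1 : a χ = 1 := by omega
      rw [h1, hq']; norm_num
    rw [show (q : ℝ) = 3 by exact_mod_cast hq3] at hS hmain
    nlinarith [mul_nonneg (sub_nonneg.2 hpR) (show (0 : ℝ) ≤ 3 - S by linarith)]
  · have hq4 : (4 : ℝ) ≤ q := by exact_mod_cast (by omega : 4 ≤ q)
    have hS := hbound (1 / 3) (by norm_num) fun χ hχ h0 => by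
      have h2 := hsmall χ hχ
      have h3 : 2 * a χ ≤ (q : ℤ) := by nlinarith [sq_nonneg (a χ - 1)]
      have h3' : 2 * (a χ : ℝ) ≤ q := by exact_mod_cast h3
      have h0' : (0 : ℝ) < a χ := by exact_mod_cast h0
      rw [div_le_div_iff₀ (by positivity) (by norm_num)]
      linarith
    nlinarith [mul_nonneg (sub_nonneg.2 hpR) (show (0 : ℝ) ≤ (q : ℝ) - S by nlinarith)]

end CfsgLib.Blocks.RegularProduct
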